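import Mathlib.LinearAlgebra.FiniteDimensional.Lemmas
import Mathlib.Tactic

/-! Two subspaces of the same dimension have a common complement (helper21). -/

set_option autoImplicit false
universe u v

namespace Groth.Agent.Lib.Helper21.CommonCompl

variable {k : Type u} {V : Type v} [Field k] [AddCommGroup V] [Module k V]

lemma exists_notMem_two (W₁ W₂ : Submodule k V) (h₁ : W₁ ≠ ⊤) (h₂ : W₂ ≠ ⊤) :
    ∃ x : V, x ∉ W₁ ∧ x ∉ W₂ := by
  obtain ⟨a, ha⟩ : ∃ a, a ∉ W₁ := by
    by_contra hc
    push Not at hc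
    exact h₁ (eq_top_iff.2 fun x _ => hc x)
  obtain ⟨b, hb⟩ : ∃ b, b ∉ W₂ := by
    by_contra hc
    push Not at hc
    exact h₂ (eq_top_iff.2 fun x _ => hc x)
  by_cases ha2 : a ∈ W₂
  · by_cases hb1 : b ∈ W₁
    · refine ⟨a + b, fun h => ha ?_, fun h => hb ?_⟩
      · have := W₁.sub_mem h hb1
        simpa using this
      · have := W₂.sub_mem h ha2
        simpa using this
    · exact ⟨b, hb1, hb⟩
  · exact ⟨a, ha, ha2⟩

variable [FiniteDimensional k V]

lemma exists_common_isCompl_aux (m : ℕ) : ∀ (W₁ W₂ : Submodule k V),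
    Module.finrank k W₁ = Module.finrank k W₂ → Module.finrank k V - Module.finrank k W₁ = m →
    ∃ C : Submodule k V, IsCompl W₁ C ∧ IsCompl W₂ C := by
  induction m with
  | zero =>
    intro W₁ W₂ h hm
    have h1 : W₁ = ⊤ := Submodule.eq_top_of_finrank_eq (by have := W₁.finrank_le; omega)
    have h2 : W₂ = ⊤ := Submodule.eq_top_of_finrank_eq (by have := W₂.finrank_le; omega)
    exact ⟨⊥, h1 ▸ isCompl_top_bot, h2 ▸ isCompl_top_bot⟩
  | succ m ih =>
    intro W₁ W₂ h hm
    have hW₁ : W₁ ≠ ⊤ := by intro he; rw [he, finrank_top] at hm; omega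
    have hW₂ : W₂ ≠ ⊤ := by intro he; rw [he, finrank_top] at h; rw [h] at hm; omega
    obtain ⟨x, hx1, hx2⟩ := exists_notMem_two W₁ W₂ hW₁ hW₂
    have hx0 : x ≠ 0 := fun h0 => hx1 (h0 ▸ W₁.zero_mem)
    have hd1 := Submodule.finrank_sup_span_singleton hx1
    have hd2 := Submodule.finrank_sup_span_singleton hx2
    obtain ⟨C', hC1, hC2⟩ := ih (W₁ ⊔ Submodule.span k {x}) (W₂ ⊔ Submodule.span k {x})
      (by rw [hd1, hd2, h]) (by rw [hd1]; have := W₁.finrank_le; omega)
    have hxC : x ∉ C' := by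
      intro hxc
      have hxW : x ∈ W₁ ⊔ Submodule.span k {x} :=
        Submodule.mem_sup_right (Submodule.mem_span_singleton_self x)
      have : x ∈ (W₁ ⊔ Submodule.span k {x}) ⊓ C' := ⟨hxW, hxc⟩
      rw [hC1.inf_eq_bot] at this
      exact hx0 this
    have hdC := Submodule.finrank_sup_span_singleton hxC
    have hC'dim := Submodule.finrank_add_eq_of_isCompl hC1
    refine ⟨C' ⊔ Submodule.span k {x}, ?_, ?_⟩
    · have htop : W₁ ⊔ (C' ⊔ Submodule.span k {x}) = ⊤ := by
        rw [eq_top_iff, ← hC1.sup_eq_top]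
        exact sup_le (sup_le le_sup_left (le_sup_of_le_right le_sup_right))
          (le_sup_of_le_right le_sup_left)
      refine (Submodule.isCompl_iff_disjoint _ _ ?_).2 ?_
      · rw [hdC]; omega
      · have hs := Submodule.finrank_sup_add_finrank_inf_eq W₁ (C' ⊔ Submodule.span k {x})
        rw [htop, finrank_top, hdC] at hs
        rw [disjoint_iff]
        exact Submodule.finrank_eq_zero.1 (by omega)
    · have htop : W₂ ⊔ (C' ⊔ Submodule.span k {x}) = ⊤ := by
        rw [eq_top_iff, ← hC2.sup_eq_top]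
        exact sup_le (sup_le le_sup_left (le_sup_of_le_right le_sup_right))
          (le_sup_of_le_right le_sup_left)
      refine (Submodule.isCompl_iff_disjoint _ _ ?_).2 ?_
      · rw [hdC]; omega
      · have hs := Submodule.finrank_sup_add_finrank_inf_eq W₂ (C' ⊔ Submodule.span k {x})
        rw [htop, finrank_top, hdC] at hs
        rw [disjoint_iff]
        exact Submodule.finrank_eq_zero.1 (by omega)

/-- Two subspaces of the same finite dimension have a common complement. -/
lemma exists_common_isCompl (W₁ W₂ : Submodule k V)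
    (h : Module.finrank k W₁ = Module.finrank k W₂) :
    ∃ C : Submodule k V, IsCompl W₁ C ∧ IsCompl W₂ C :=
  exists_common_isCompl_aux _ W₁ W₂ h rfl

end Groth.Agent.Lib.Helper21.CommonCompl
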