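import Mathlib.Algebra.BigOperators.Group.Finset.Powerset
import Mathlib.Algebra.BigOperators.Fin
import Mathlib.Data.Fintype.Powerset
import Mathlib.Tactic

/-! Deviations of maps between abelian groups (helper21). -/

set_option autoImplicit false
universe u v

namespace Groth.Agent.Lib.Helper21.Deviation

open Finset

variable {A : Type u} {G : Type v} [AddCommGroup A] [AddCommGroup G]

lemma sum_powerset_map {α β : Type*} {M : Type*} [AddCommMonoid M] [DecidableEq β]
    (s : Finset α) (e : α ↪ β) (g : Finset β → M) :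
    ∑ t ∈ (s.map e).powerset, g t = ∑ J ∈ s.powerset, g (J.map e) := by
  classical
  rw [Finset.map_eq_image, Finset.powerset_image, Finset.sum_image]
  · refine Finset.sum_congr rfl fun J _ => ?_
    rw [Finset.map_eq_image]
  · intro J₁ _ J₂ _ h
    exact Finset.image_injective e.injective h

/-- full alternating sum over all subsets -/
def F (f : A → G) {m : ℕ} (x : Fin m → A) (w : A) : G :=
  ∑ I ∈ (Finset.univ : Finset (Fin m)).powerset, ((-1 : ℤ) ^ I.card) • f (w + ∑ i ∈ I, x i)

lemma dev_eq (f : A → G) {m : ℕ} (x : Fin m → A) :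
    ∑ I ∈ ((Finset.univ : Finset (Fin m)).powerset.erase ∅),
        ((-1 : ℤ) ^ (m + I.card)) • f (∑ i ∈ I, x i) =
      ((-1 : ℤ) ^ m) • (F f x 0 - f 0) := by
  classical
  rw [Finset.sum_erase_eq_sub (Finset.empty_mem_powerset _)]
  simp only [F, zero_add, Finset.card_empty, add_zero, Finset.sum_empty, pow_add, mul_smul,
    Finset.smul_sum, smul_sub, pow_zero, one_smul]

lemma F_succ (f : A → G) {n : ℕ} (x : Fin (n + 1) → A) (w : A) :
    F f x w = F f (Fin.tail x) w - F f (Fin.tail x) (w + x 0) := by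
  classical
  unfold F
  rw [Fin.univ_succ, Finset.cons_eq_insert, Finset.sum_powerset_insert (by simp)]
  rw [sum_powerset_map, sum_powerset_map, sub_eq_add_neg, ← Finset.sum_neg_distrib]
  congr 1
  · refine Finset.sum_congr rfl fun J _ => ?_
    rw [Finset.card_map, Finset.sum_map]
    rfl
  · refine Finset.sum_congr rfl fun J _ => ?_
    have hnot : (0 : Fin (n + 1)) ∉ J.map ⟨Fin.succ, Fin.succ_injective _⟩ := by
      simp [Fin.succ_ne_zero]
    rw [Finset.card_insert_of_notMem hnot, Finset.sum_insert hnot, Finset.card_map,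
      Finset.sum_map, pow_succ, mul_neg_one, neg_smul, add_assoc]
    rfl

lemma F_update (f : A → G) {n : ℕ} (y : Fin n → A) (j : Fin n) (c w : A) :
    F f (Function.update y j c) w =
      ∑ K ∈ ((Finset.univ : Finset (Fin n)).erase j).powerset,
        ((-1 : ℤ) ^ K.card) • (f (w + ∑ i ∈ K, y i) - f (w + (c + ∑ i ∈ K, y i))) := by
  classical
  unfold F
  conv_lhs => rw [← Finset.insert_erase (Finset.mem_univ j)]
  rw [Finset.sum_powerset_insert (Finset.notMem_erase j _)]
  simp only [smul_sub]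
  rw [Finset.sum_sub_distrib, sub_eq_add_neg, ← Finset.sum_neg_distrib]
  have hsum : ∀ L : Finset (Fin n), j ∉ L → ∑ i ∈ L, Function.update y j c i = ∑ i ∈ L, y i := by
    intro L hL
    refine Finset.sum_congr rfl fun i hi => ?_
    rw [Function.update_of_ne]
    rintro rfl; exact hL hi
  congr 1
  · refine Finset.sum_congr rfl fun K hK => ?_
    have hjK : j ∉ K := fun h => Finset.notMem_erase j _ (Finset.mem_powerset.1 hK h)
    rw [hsum K hjK]
  · refine Finset.sum_congr rfl fun K hK => ?_
    have hjK : j ∉ K := fun h => Finset.notMem_erase j _ (Finset.mem_powerset.1 hK h)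
    rw [Finset.card_insert_of_notMem hjK, Finset.sum_insert hjK, Function.update_self, hsum K hjK,
      pow_succ, mul_neg_one, neg_smul]

/-- the key identity relating the `n`-th deviation in one variable with the `(n+1)`-st -/
lemma dev_identity (f : A → G) {n : ℕ} (y : Fin n → A) (j : Fin n) (a b : A) :
    ((-1 : ℤ) ^ n) • (F f (Function.update y j (a + b)) 0 - f 0) -
      ((-1 : ℤ) ^ n) • (F f (Function.update y j a) 0 - f 0) -
      ((-1 : ℤ) ^ n) • (F f (Function.update y j b) 0 - f 0) =
    ((-1 : ℤ) ^ (n + 1)) • (F f (Fin.cons b (Function.update y j a) : Fin (n + 1) → A) 0 - f 0) := by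
  rw [F_succ]
  simp only [Fin.tail_cons, Fin.cons_zero, zero_add]
  rw [F_update, F_update, F_update, F_update, pow_succ, mul_neg_one, neg_smul]
  simp only [zero_add]
  rw [← smul_sub, ← smul_sub, ← smul_neg]
  congr 1
  have aux : ∀ X Y Z W e : G, X - Y - Z = -W → (X - e) - (Y - e) - (Z - e) = -(W - e) := by
    intro X Y Z W e h
    rw [show W = -(X - Y - Z) by rw [h, neg_neg]]
    abel
  apply aux
  have : ∀ K : Finset (Fin n),
      ((-1 : ℤ) ^ K.card) • (f (∑ i ∈ K, y i) - f (a + b + ∑ i ∈ K, y i)) -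
        ((-1 : ℤ) ^ K.card) • (f (∑ i ∈ K, y i) - f (a + ∑ i ∈ K, y i)) -
        ((-1 : ℤ) ^ K.card) • (f (∑ i ∈ K, y i) - f (b + ∑ i ∈ K, y i)) =
      -(((-1 : ℤ) ^ K.card) • (f (∑ i ∈ K, y i) - f (a + ∑ i ∈ K, y i)) -
        ((-1 : ℤ) ^ K.card) • (f (b + ∑ i ∈ K, y i) - f (b + (a + ∑ i ∈ K, y i)))) := by
    intro K
    rw [show b + (a + ∑ i ∈ K, y i) = a + b + ∑ i ∈ K, y i by abel]
    simp only [smul_sub]
    abel
  rw [← Finset.sum_sub_distrib, ← Finset.sum_sub_distrib, ← Finset.sum_sub_distrib,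
    ← Finset.sum_neg_distrib]
  exact Finset.sum_congr rfl fun K _ => this K

end Groth.Agent.Lib.Helper21.Deviation
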