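import Mathlib.RingTheory.MvPolynomial.Homogeneous
import Mathlib.Data.Sym.Card
import Mathlib.Data.Finsupp.Multiset
import Mathlib.Tactic

/-! Dimension of the space of homogeneous polynomials in three variables (helper21). -/

set_option autoImplicit false
universe u

namespace Groth.Agent.Lib.Helper21.HomogDim

variable (k : Type u) [Field k]

lemma finrank_homogeneous_fin3 (m : ℕ) :
    Module.finrank k (MvPolynomial.homogeneousSubmodule (Fin 3) k m) = (m + 2).choose 2 := by
  classical
  rw [MvPolynomial.homogeneousSubmodule_eq_finsupp_supported]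
  set s : Set (Fin 3 →₀ ℕ) := {d | d.degree = m} with hs
  let e : Sym (Fin 3) m ≃ s :=
    (Sym.equivNatSum (Fin 3) m).trans (Equiv.subtypeEquivRight (fun P => by
      simp only [hs, Set.mem_setOf_eq, Finsupp.degree_apply, Finsupp.sum, id]))
  haveI : Fintype s := Fintype.ofEquiv _ e
  rw [LinearEquiv.finrank_eq (AddMonoidAlgebra.supportedEquivFinsupp s),
    Module.finrank_finsupp_self, ← Fintype.card_congr e, Sym.card_sym_eq_choose]
  simp only [Fintype.card_fin]
  rw [show 3 + m - 1 = m + 2 by omega, Nat.choose_symm_of_eq_add]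
  omega

end Groth.Agent.Lib.Helper21.HomogDim

namespace Groth.Agent.Lib.Helper21.HomogDim

variable {k : Type u} [Field k]

/-- A linear form vanishing at `v` but not at `w`, for `v, w` linearly independent in `k^3`. -/
lemma exists_linear_form (v w : Fin 3 → k) (h : LinearIndependent k ![v, w]) :
    ∃ ℓ : MvPolynomial (Fin 3) k, ℓ.IsHomogeneous 1 ∧ MvPolynomial.aeval v ℓ = 0 ∧
      MvPolynomial.aeval w ℓ ≠ 0 := by
  classical
  have hw : w ∉ Submodule.span k {v} := by
    intro hmem
    obtain ⟨c, hc⟩ := Submodule.mem_span_singleton.mp hmem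
    have := (LinearIndependent.pair_iff.mp h) c (-1) (by rw [hc]; simp)
    simp at this
  obtain ⟨f, hfw, hfv⟩ := Submodule.exists_dual_map_eq_bot_of_notMem hw inferInstance
  have hfv' : f v = 0 := by
    have : f v ∈ Submodule.map f (Submodule.span k {v}) :=
      Submodule.mem_map_of_mem (Submodule.mem_span_singleton_self v)
    rw [hfv] at this
    exact this
  refine ⟨∑ i, MvPolynomial.C (f (Pi.single i 1)) * MvPolynomial.X i, ?_, ?_, ?_⟩
  · apply MvPolynomial.IsHomogeneous.sum
    intro i _
    exact MvPolynomial.isHomogeneous_C_mul_X _ i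
  · have e : ∀ u : Fin 3 → k, MvPolynomial.aeval u
        (∑ i, MvPolynomial.C (f (Pi.single i 1)) * MvPolynomial.X i) = f u := by
      intro u
      conv_rhs => rw [pi_eq_sum_univ u]
      simp only [map_sum, map_mul, MvPolynomial.aeval_C, MvPolynomial.aeval_X, map_smul,
        smul_eq_mul, Algebra.algebraMap_self, RingHom.id_apply]
      refine Finset.sum_congr rfl fun x _ => ?_
      rw [mul_comm]
      congr 2
      funext j
      simp [Pi.single_apply, eq_comm]
    rw [e, hfv']
  · have e : ∀ u : Fin 3 → k, MvPolynomial.aeval u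
        (∑ i, MvPolynomial.C (f (Pi.single i 1)) * MvPolynomial.X i) = f u := by
      intro u
      conv_rhs => rw [pi_eq_sum_univ u]
      simp only [map_sum, map_mul, MvPolynomial.aeval_C, MvPolynomial.aeval_X, map_smul,
        smul_eq_mul, Algebra.algebraMap_self, RingHom.id_apply]
      refine Finset.sum_congr rfl fun x _ => ?_
      rw [mul_comm]
      congr 2
      funext j
      simp [Pi.single_apply, eq_comm]
    rw [e]
    exact hfw

end Groth.Agent.Lib.Helper21.HomogDim
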