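import Mathlib.Topology.NoetherianSpace
import Mathlib.Topology.Sober

/-! A topological lemma on supports in locally noetherian quasi-sober spaces (helper21). -/

set_option autoImplicit false
universe u

namespace Groth.Agent.Lib.Helper21.NoethTop

open Topology

variable {X : Type u} [TopologicalSpace X] [QuasiSober X]

/-- Let `W` be an open noetherian subset of a quasi-sober space, `x ∈ W`, and `T ⊆ W` relatively
closed such that no point of `T` other than `x` specializes to `x`. Then some open neighbourhood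
`W'` of `x` inside `W` meets `T` only inside the closure of `x`. -/
lemma exists_open_inter_subset_closure (W : Set X) (hW : IsOpen W)
    [TopologicalSpace.NoetherianSpace W] (x : X) (hx : x ∈ W) (T : Set X) (hTW : T ⊆ W)
    (hT : IsClosed ((Subtype.val : W → X) ⁻¹' T))
    (hgen : ∀ y ∈ T, y ⤳ x → y = x) :
    ∃ W' : Set X, IsOpen W' ∧ x ∈ W' ∧ W' ⊆ W ∧ T ∩ W' ⊆ closure ({x} : Set X) := by
  have : QuasiSober W := hW.isOpenEmbedding_subtypeVal.quasiSober
  obtain ⟨S, hSf, hSc, hSi, hSU⟩ :=
    TopologicalSpace.NoetherianSpace.exists_finite_set_isClosed_irreducible hT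
  set x' : W := ⟨x, hx⟩
  -- the bad pieces: those not containing x
  set B : Set W := ⋃₀ {t ∈ S | x' ∉ t} with hB
  have hBc : IsClosed B := by
    rw [hB, Set.sUnion_eq_biUnion]
    exact Set.Finite.isClosed_biUnion (hSf.subset (fun t ht => ht.1)) (fun t ht => hSc t ht.1)
  refine ⟨Subtype.val '' Bᶜ, hW.isOpenMap_subtype_val _ hBc.isOpen_compl, ⟨x', ?_, rfl⟩,
    by rintro _ ⟨w, _, rfl⟩; exact w.2, ?_⟩
  · rintro ⟨t, ⟨_, hxt⟩, hxt'⟩
    exact hxt hxt'
  · rintro u ⟨huT, ⟨u', hu'B, rfl⟩⟩
    have hu'T : u' ∈ (Subtype.val : W → X) ⁻¹' T := huT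
    rw [hSU] at hu'T
    obtain ⟨t, htS, hu't⟩ := hu'T
    have hxt : x' ∈ t := by
      by_contra hxt
      exact hu'B ⟨t, ⟨htS, hxt⟩, hu't⟩
    -- generic point of t
    have hgp := (hSi t htS).isGenericPoint_genericPoint (hSc t htS)
    set η := (hSi t htS).genericPoint
    have hηt : η ∈ t := hgp.mem
    have hηx : η ⤳ x' := hgp.specializes hxt
    have hηT : (η : X) ∈ T := by
      have : η ∈ (Subtype.val : W → X) ⁻¹' T := by rw [hSU]; exact ⟨t, htS, hηt⟩
      exact this
    have hηeq : (η : X) = x := hgen η hηT (hηx.map continuous_subtype_val)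
    have hηeq' : η = x' := Subtype.ext hηeq
    have hspec : x' ⤳ u' := by
      rw [← hηeq']
      exact hgp.specializes hu't
    have := hspec.map continuous_subtype_val
    exact specializes_iff_mem_closure.mp this

end Groth.Agent.Lib.Helper21.NoethTop
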