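import Mathlib.RingTheory.MvPolynomial.Homogeneous
import Mathlib.LinearAlgebra.Dual.Lemmas
import Mathlib.LinearAlgebra.FiniteDimensional.Lemmas
import Mathlib.Tactic

/-! Forms in three variables vanishing on point sets (helper21). -/

set_option autoImplicit false
universe u

namespace Groth.Agent.Lib.Helper21.PlaneForms

variable {k : Type u} [Field k]

/-- The degree-one polynomial attached to a linear functional on `k^3`. -/
noncomputable def linPoly (f : (Fin 3 → k) →ₗ[k] k) : MvPolynomial (Fin 3) k :=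
  ∑ i, MvPolynomial.C (f (Pi.single i 1)) * MvPolynomial.X i

lemma linPoly_isHomogeneous (f : (Fin 3 → k) →ₗ[k] k) : (linPoly f).IsHomogeneous 1 := by
  apply MvPolynomial.IsHomogeneous.sum
  intro i _
  exact MvPolynomial.isHomogeneous_C_mul_X _ i

lemma aeval_linPoly (f : (Fin 3 → k) →ₗ[k] k) (u : Fin 3 → k) :
    MvPolynomial.aeval u (linPoly f) = f u := by
  classical
  unfold linPoly
  conv_rhs => rw [pi_eq_sum_univ u]
  simp only [map_sum, map_mul, MvPolynomial.aeval_C, MvPolynomial.aeval_X, map_smul,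
    smul_eq_mul, Algebra.algebraMap_self, RingHom.id_apply]
  refine Finset.sum_congr rfl fun x _ => ?_
  rw [mul_comm]
  congr 2
  funext j
  simp [Pi.single_apply, eq_comm]

/-- A functional vanishing on a submodule but not at a point outside it. -/
lemma exists_functional (p : Submodule k (Fin 3 → k)) (x : Fin 3 → k) (hx : x ∉ p) :
    ∃ f : (Fin 3 → k) →ₗ[k] k, f x ≠ 0 ∧ ∀ y ∈ p, f y = 0 := by
  obtain ⟨f, hfx, hfp⟩ := Submodule.exists_dual_map_eq_bot_of_notMem hx inferInstance
  refine ⟨f, hfx, fun y hy => ?_⟩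
  have : f y ∈ Submodule.map f p := Submodule.mem_map_of_mem hy
  rw [hfp] at this
  exact this

lemma span_pair_ne_top (a b : Fin 3 → k) : Submodule.span k {a, b} ≠ ⊤ := by
  classical
  intro h
  have h1 : Module.finrank k (Submodule.span k ({a, b} : Set (Fin 3 → k))) ≤ 2 := by
    have := finrank_span_finset_le_card (R := k) ({a, b} : Finset (Fin 3 → k))
    rw [Finset.coe_insert, Finset.coe_singleton] at this
    refine this.trans ?_
    exact (Finset.card_insert_le a {b}).trans (by simp)
  rw [h, finrank_top, Module.finrank_fin_fun] at h1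
  omega

/-- Key construction: if `v` is not proportional to any point of `Λ'`, and `Λ'` (of size `n ≥ 3`) is not
collinear, there is a form of degree `n - 1` vanishing on `Λ'` but not at `v`. -/
lemma exists_form (n : ℕ) (hn : 3 ≤ n) (Λ' : Finset (Fin 3 → k)) (hcard' : Λ'.card = n)
    (hline' : ¬ ∃ ℓ : (Fin 3 → k) →ₗ[k] k, ℓ ≠ 0 ∧ ∀ v ∈ Λ', ℓ v = 0)
    (v : Fin 3 → k) (hv : ¬ ∃ w ∈ Λ', ∃ c : k, v = c • w) :
    ∃ F ∈ (MvPolynomial.homogeneousSubmodule (Fin 3) k (n - 1) ⊓
        ⨅ w ∈ Λ', LinearMap.ker (MvPolynomial.aeval w).toLinearMap),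
      MvPolynomial.aeval v F ≠ 0 := by
  classical
  have hne : Λ'.Nonempty := by
    rw [← Finset.card_pos, hcard']; omega
  obtain ⟨w1, hw1⟩ := hne
  -- some point of Λ' outside span {v, w1}
  have hex : ∃ w2 ∈ Λ', w2 ∉ Submodule.span k {v, w1} := by
    by_contra hcon
    push Not at hcon
    obtain ⟨x, hx⟩ : ∃ x, x ∉ Submodule.span k ({v, w1} : Set (Fin 3 → k)) := by
      by_contra hall
      push Not at hall
      exact span_pair_ne_top v w1 (eq_top_iff.2 fun x _ => hall x)
    obtain ⟨f, hfx, hfp⟩ := exists_functional _ x hx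
    exact hline' ⟨f, fun h0 => hfx (by rw [h0]; rfl), fun w hw => hfp w (hcon w hw)⟩
  obtain ⟨w2, hw2, hw2s⟩ := hex
  have hw12 : w2 ≠ w1 := by
    rintro rfl
    exact hw2s (Submodule.subset_span (by simp))
  -- v is not in span {w1, w2}
  have hvs : v ∉ Submodule.span k ({w1, w2} : Set (Fin 3 → k)) := by
    intro hmem
    obtain ⟨a, b, hab⟩ := Submodule.mem_span_pair.mp hmem
    by_cases hb : b = 0
    · subst hb
      exact hv ⟨w1, hw1, a, by rw [← hab]; simp⟩
    · apply hw2s
      have : w2 = b⁻¹ • v + (-(b⁻¹ * a)) • w1 := by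
        rw [← hab, smul_add, smul_smul, smul_smul, inv_mul_cancel₀ hb, one_smul]
        rw [neg_smul, mul_smul]
        abel
      rw [this]
      exact Submodule.add_mem _ (Submodule.smul_mem _ _ (Submodule.subset_span (by simp)))
        (Submodule.smul_mem _ _ (Submodule.subset_span (by simp)))
  obtain ⟨f0, hf0v, hf0⟩ := exists_functional _ v hvs
  have hg : ∀ w ∈ Λ', ∃ g : (Fin 3 → k) →ₗ[k] k, g v ≠ 0 ∧ g w = 0 := by
    intro w hw
    have : v ∉ Submodule.span k {w} := by
      intro hmem
      obtain ⟨c, hc⟩ := Submodule.mem_span_singleton.mp hmem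
      exact hv ⟨w, hw, c, hc.symm⟩
    obtain ⟨g, hgv, hgw⟩ := exists_functional _ v this
    exact ⟨g, hgv, hgw w (Submodule.mem_span_singleton_self w)⟩
  choose! g hgv hgw using hg
  set s := (Λ'.erase w1).erase w2 with hs
  have hscard : s.card = n - 2 := by
    rw [hs, Finset.card_erase_of_mem (Finset.mem_erase.2 ⟨hw12, hw2⟩),
      Finset.card_erase_of_mem hw1, hcard']
    omega
  refine ⟨linPoly f0 * ∏ w ∈ s, linPoly (g w), ?_, ?_⟩
  · rw [Submodule.mem_inf]
    constructor
    · rw [MvPolynomial.mem_homogeneousSubmodule]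
      have h1 := (linPoly_isHomogeneous f0).mul
        (MvPolynomial.IsHomogeneous.prod s (fun w => linPoly (g w)) (fun _ => 1)
          (fun w _ => linPoly_isHomogeneous (g w)))
      convert h1 using 1
      simp only [Finset.sum_const, smul_eq_mul, mul_one, hscard]
      omega
    · rw [Submodule.mem_iInf]
      intro w
      rw [Submodule.mem_iInf]
      intro hw
      rw [LinearMap.mem_ker, AlgHom.toLinearMap_apply, map_mul, map_prod, aeval_linPoly]
      by_cases h1 : w = w1
      · subst h1
        rw [hf0 _ (Submodule.subset_span (by simp)), zero_mul]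
      by_cases h2 : w = w2
      · subst h2
        rw [hf0 _ (Submodule.subset_span (by simp)), zero_mul]
      have hws : w ∈ s := by
        rw [hs]; exact Finset.mem_erase.2 ⟨h2, Finset.mem_erase.2 ⟨h1, hw⟩⟩
      rw [Finset.prod_eq_zero hws (by rw [aeval_linPoly]; exact hgw w hw), mul_zero]
  · rw [map_mul, map_prod, aeval_linPoly]
    refine mul_ne_zero hf0v ?_
    rw [Finset.prod_ne_zero_iff]
    intro w hw
    rw [aeval_linPoly]
    have : w ∈ Λ' := Finset.mem_of_mem_erase (Finset.mem_of_mem_erase hw)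
    exact hgv w this

end Groth.Agent.Lib.Helper21.PlaneForms
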