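import Mathlib.Algebra.Ring.Int.Defs
import Mathlib.Algebra.Ring.Parity
import Mathlib.Algebra.Group.Basic
import Mathlib.Tactic

/-! Helper lemmas on pointed maps of degree two between abelian groups (helper21). -/

set_option autoImplicit false
universe u v

namespace Groth.Agent.Lib.Helper21.PtDeg

variable {A : Type u} {G : Type v} [AddCommGroup A] [AddCommGroup G]

/-- The degree two identity. -/
def IsDegTwo (f : A → G) : Prop :=
  ∀ x y z : A, f (x + y + z) + f x + f y + f z = f (x + y) + f (x + z) + f (y + z)

/-- The polarisation. -/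
def polar (f : A → G) (x y : A) : G := f (x + y) - f x - f y

lemma map_zero_of {f : A → G} (hf : IsDegTwo f) : f 0 = 0 := by
  have h := hf 0 0 0
  simp only [add_zero] at h
  exact add_eq_left.mp h

lemma polar_add_left {f : A → G} (hf : IsDegTwo f) (x x' y : A) :
    polar f (x + x') y = polar f x y + polar f x' y := by
  unfold polar
  have h := hf x x' y
  have h' : f (x + x' + y) = f (x + x') + f (x + y) + f (x' + y) - f x - f x' - f y := by
    rw [← sub_eq_zero]
    rw [← sub_eq_zero] at h
    rw [← h]; abel
  rw [h']; abel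

lemma polar_comm (f : A → G) (x y : A) : polar f x y = polar f y x := by
  unfold polar; rw [add_comm x y]; abel

lemma polar_add_right {f : A → G} (hf : IsDegTwo f) (x y y' : A) :
    polar f x (y + y') = polar f x y + polar f x y' := by
  rw [polar_comm, polar_add_left hf, polar_comm f y, polar_comm f y']

lemma polar_zero_left {f : A → G} (hf : IsDegTwo f) (y : A) : polar f 0 y = 0 := by
  unfold polar; rw [map_zero_of hf]; simp

/-- polar is additive in the first argument, hence commutes with integer multiples. -/
def polarHom {f : A → G} (hf : IsDegTwo f) (y : A) : A →+ G where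
  toFun x := polar f x y
  map_zero' := polar_zero_left hf y
  map_add' x x' := polar_add_left hf x x' y

lemma polar_zsmul_left {f : A → G} (hf : IsDegTwo f) (n : ℤ) (x y : A) :
    polar f (n • x) y = n • polar f x y := by
  have := map_zsmul (polarHom hf y) n x
  simpa [polarHom] using this

lemma polar_self {f : A → G} (hf : IsDegTwo f) (x : A) : polar f x x = f x + f (-x) := by
  have h1 : polar f x (x + -x) = polar f x x + polar f x (-x) := polar_add_right hf x x (-x)
  have h2 : polar f x (x + -x) = 0 := by
    rw [add_neg_cancel]; unfold polar; rw [map_zero_of hf]; simp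
  have h3 : polar f x (-x) = -(f x + f (-x)) := by
    unfold polar; rw [add_neg_cancel, map_zero_of hf]; abel
  rw [h2, h3] at h1
  have := eq_neg_of_add_eq_zero_left h1.symm
  rw [this, neg_neg]

lemma map_nsmul_aux {f : A → G} (hf : IsDegTwo f) (x : A) (m : ℕ) :
    f (m • x) = (m : ℤ) • f x + ((m * (m - 1) / 2 : ℕ) : ℤ) • polar f x x := by
  induction m with
  | zero => simp [map_zero_of hf]
  | succ k ih =>
    have e : f ((k + 1) • x) = f (k • x) + f x + polar f (k • x) x := by
      unfold polar; rw [succ_nsmul]; abel
    rw [e, ih]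
    have hp : polar f (k • x) x = (k : ℤ) • polar f x x := by
      have := polar_zsmul_left hf (k : ℤ) x x
      rw [natCast_zsmul] at this
      exact this
    rw [hp]
    have hk : ((k + 1) * (k + 1 - 1) / 2 : ℕ) = k * (k - 1) / 2 + k := by
      simp only [Nat.add_sub_cancel]
      rcases Nat.even_or_odd k with ⟨r, hr⟩ | ⟨r, hr⟩
      · subst hr
        rcases Nat.eq_zero_or_pos r with h0 | hpos
        · subst h0; simp
        · have : (r + r + 1) * (r + r) / 2 = (r + r + 1) * r := by
            rw [show (r + r + 1) * (r + r) = 2 * ((r + r + 1) * r) by ring]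
            exact Nat.mul_div_cancel_left _ (by norm_num)
          rw [this]
          have : (r + r) * (r + r - 1) / 2 = r * (r + r - 1) := by
            rw [show (r + r) * (r + r - 1) = 2 * (r * (r + r - 1)) by ring]
            exact Nat.mul_div_cancel_left _ (by norm_num)
          rw [this]
          obtain ⟨s, rfl⟩ : ∃ s, r = s + 1 := ⟨r - 1, by omega⟩
          rw [show s + 1 + (s + 1) - 1 = 2 * s + 1 by omega]
          ring
      · subst hr
        have : (2 * r + 1 + 1) * (2 * r + 1) / 2 = (r + 1) * (2 * r + 1) := by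
          rw [show (2 * r + 1 + 1) * (2 * r + 1) = 2 * ((r + 1) * (2 * r + 1)) by ring]
          exact Nat.mul_div_cancel_left _ (by norm_num)
        rw [this]
        have : (2 * r + 1) * (2 * r + 1 - 1) / 2 = (2 * r + 1) * r := by
          rw [show 2 * r + 1 - 1 = 2 * r by omega]
          rw [show (2 * r + 1) * (2 * r) = 2 * ((2 * r + 1) * r) by ring]
          exact Nat.mul_div_cancel_left _ (by norm_num)
        rw [this]
        ring
    rw [hk]
    push_cast
    rw [add_smul, add_smul, one_smul]
    abel

lemma polar_zsmul_left_self {f : A → G} (hf : IsDegTwo f) (n : ℤ) (x : A) :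
    polar f (n • x) x = n • polar f x x := polar_zsmul_left hf n x x

lemma int_step (n : ℤ) : (n + 1) * (n + 1 - 1) / 2 = n * (n - 1) / 2 + n := by
  rw [show (n + 1) * (n + 1 - 1) = n * (n - 1) + n * 2 by ring]
  exact Int.add_mul_ediv_right _ _ (by norm_num)

/-- The basic formula f(n x) = n f(x) + (n(n-1)/2) B(x,x). -/
lemma map_zsmul_eq {f : A → G} (hf : IsDegTwo f) (x : A) (n : ℤ) :
    f (n • x) = n • f x + (n * (n - 1) / 2) • polar f x x := by
  have step : ∀ m : ℤ, f ((m + 1) • x) = f (m • x) + f x + m • polar f x x := by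
    intro m
    have e : f ((m + 1) • x) = f (m • x) + f x + polar f (m • x) x := by
      unfold polar; rw [add_smul, one_smul]; abel
    rw [e, polar_zsmul_left_self hf]
  induction n using Int.induction_on with
  | zero => simp [map_zero_of hf]
  | succ k ih =>
    rw [step, ih, int_step, add_smul, add_smul, one_smul]
    abel
  | pred k ih =>
    have h := step (-(k : ℤ) - 1)
    rw [show -(k : ℤ) - 1 + 1 = -(k : ℤ) by ring, ih] at h
    have h2 := int_step (-(k : ℤ) - 1)
    rw [show -(k : ℤ) - 1 + 1 = -(k : ℤ) by ring] at h2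
    -- h : -k • f x + b(-k) • P = f((-k-1) x) + f x + (-k-1) • P
    -- goal : f((-k-1) x) = (-k-1) • f x + b(-k-1) • P
    have h3 : f ((-(k : ℤ) - 1) • x) = -(k : ℤ) • f x + (-(k : ℤ) * (-(k : ℤ) - 1) / 2) • polar f x x
        - f x - (-(k : ℤ) - 1) • polar f x x := by
      rw [h]; abel
    rw [h3, h2]
    generalize (-(k : ℤ) - 1) * (-(k : ℤ) - 1 - 1) / 2 = c
    rw [show -(k : ℤ) - 1 = -(k : ℤ) + (-1) by ring]
    generalize -(k : ℤ) = m
    rw [add_smul, add_smul, add_smul, neg_smul, one_smul]
    abel

lemma int_half (n : ℤ) : n * (n + 1) / 2 = n * (n - 1) / 2 + n := by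
  rw [show n * (n + 1) = n * (n - 1) + n * 2 by ring]
  exact Int.add_mul_ediv_right _ _ (by norm_num)

lemma map_zsmul_eq' {f : A → G} (hf : IsDegTwo f) (x : A) (n : ℤ) :
    f (n • x) = (n * (n + 1) / 2) • f x + (n * (n - 1) / 2) • f (-x) := by
  rw [map_zsmul_eq hf, polar_self hf, int_half, add_smul, smul_add]
  abel

end Groth.Agent.Lib.Helper21.PtDeg
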